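/-
Basic theory of rank one groups (Timmesfeld): the action on the conjugates of A.
-/
import Mathlib
import Cfsg.Prelude.Def_RootSubgroups

set_option autoImplicit false

namespace Cfsg.Agent.Lib.RootSubgroups.RankOne

open Cfsg

variable {G : Type*} [Group G] {A B C D : Subgroup G}

lemma mem_conjBy {A : Subgroup G} {g x : G} : x ∈ conjBy A g ↔ g⁻¹ * x * g ∈ A := by
  constructor
  · rintro ⟨y, hy, rfl⟩
    simpa [mul_assoc] using hy
  · intro h
    exact ⟨_, h, by simp [mul_assoc]⟩

lemma conj_mem_conjBy {A : Subgroup G} {a : G} (ha : a ∈ A) (g : G) : g * a * g⁻¹ ∈ conjBy A g :=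
  ⟨a, ha, rfl⟩

lemma conjBy_conjBy (A : Subgroup G) (g h : G) : conjBy (conjBy A g) h = conjBy A (h * g) := by
  ext x
  simp only [mem_conjBy, mul_inv_rev]
  simp [mul_assoc]

@[simp] lemma conjBy_one (A : Subgroup G) : conjBy A 1 = A := by
  ext x
  simp

lemma conjBy_of_mem {A : Subgroup G} {a : G} (ha : a ∈ A) : conjBy A a = A := by
  ext x
  rw [mem_conjBy]
  constructor
  · intro h
    have := A.mul_mem (A.mul_mem ha h) (A.inv_mem ha)
    simpa [mul_assoc] using this
  · intro h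
    exact A.mul_mem (A.mul_mem (A.inv_mem ha) h) ha

lemma conjBy_inj {A B : Subgroup G} {g : G} : conjBy A g = conjBy B g ↔ A = B := by
  constructor
  · intro h
    have := congrArg (fun H => conjBy H g⁻¹) h
    simpa [conjBy_conjBy] using this
  · rintro rfl; rfl

lemma conjBy_eq_iff {A B : Subgroup G} {g : G} : conjBy A g = B ↔ A = conjBy B g⁻¹ := by
  constructor
  · rintro rfl
    simp [conjBy_conjBy]
  · rintro rfl
    simp [conjBy_conjBy]

lemma conjBy_le_conjBy {A B : Subgroup G} (h : A ≤ B) (g : G) : conjBy A g ≤ conjBy B g :=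
  Subgroup.map_mono h

lemma mem_normalizer_iff_conjBy {A : Subgroup G} {g : G} :
    g ∈ Subgroup.normalizer (A : Set G) ↔ conjBy A g = A := by
  rw [Subgroup.mem_normalizer_iff]
  constructor
  · intro h
    ext x
    rw [mem_conjBy]
    have := h (g⁻¹ * x * g)
    rw [this]
    simp [mul_assoc]
  · intro h x
    conv_rhs => rw [← h]
    rw [mem_conjBy]
    simp [mul_assoc]

lemma conjBy_sup (A B : Subgroup G) (g : G) : conjBy (A ⊔ B) g = conjBy A g ⊔ conjBy B g :=
  Subgroup.map_sup _ _ _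

lemma isNilpotent_conjBy {A : Subgroup G} (hA : Group.IsNilpotent A) (g : G) :
    Group.IsNilpotent (conjBy A g) := by
  let f : A →* conjBy A g :=
    (MulAut.conj g).toMonoidHom.subgroupMap A
  have hf : Function.Surjective f := MonoidHom.subgroupMap_surjective _ _
  exact Group.nilpotent_of_surjective f hf

lemma conj_mul_conj (g a b : G) : (g * a * g⁻¹) * (g * b * g⁻¹) = g * (a * b) * g⁻¹ := by group

lemma rankOneCondition_conjBy {A B : Subgroup G} (h : RankOneCondition A B) (g : G) :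
    RankOneCondition (conjBy A g) (conjBy B g) := by
  intro a ha ha1
  rw [mem_conjBy] at ha
  have ha1' : g⁻¹ * a * g ≠ 1 := by
    intro h1
    apply ha1
    have : a = g * (g⁻¹ * a * g) * g⁻¹ := by group
    rw [this, h1]; simp
  obtain ⟨b, hb, hb1, he⟩ := h _ ha ha1'
  refine ⟨g * b * g⁻¹, conj_mem_conjBy hb g, ?_, ?_⟩
  · intro h1
    apply hb1
    have : b = g⁻¹ * (g * b * g⁻¹) * g := by group
    rw [this, h1]; simp
  · rw [conjBy_conjBy, conjBy_conjBy]
    have e1 : (g * b * g⁻¹)⁻¹ * g = g * b⁻¹ := by group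
    have e2 : a⁻¹ * g = g * (g⁻¹ * a * g)⁻¹ := by group
    rw [e1, e2, ← conjBy_conjBy, he, conjBy_conjBy]

lemma isRankOnePair_conjBy {A B : Subgroup G} (h : IsRankOnePair A B) (g : G) :
    IsRankOnePair (conjBy A g) (conjBy B g) where
  ne := fun he => h.ne (conjBy_inj.1 he)
  nilpotent_left := isNilpotent_conjBy h.nilpotent_left g
  nilpotent_right := isNilpotent_conjBy h.nilpotent_right g
  cond_left := rankOneCondition_conjBy h.cond_left g
  cond_right := rankOneCondition_conjBy h.cond_right g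

section RankOne

variable (h : IsRankOnePair A B)
include h

lemma left_ne_bot : A ≠ ⊥ := by
  rintro rfl
  -- then B = ⊥
  apply h.ne
  symm
  rw [eq_bot_iff]
  intro b hb
  by_contra hb1
  have hb1' : b ≠ 1 := by simpa using hb1
  obtain ⟨a, ha, ha1, -⟩ := h.cond_right b hb hb1'
  exact ha1 (by simpa using ha)

lemma right_ne_bot : B ≠ ⊥ := left_ne_bot (RankOnePair_symm h)

lemma exists_ne_one_left : ∃ a ∈ A, a ≠ 1 := by
  by_contra hcon
  push Not at hcon
  exact left_ne_bot h ((Subgroup.eq_bot_iff_forall _).2 hcon)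

lemma exists_ne_one_right : ∃ b ∈ B, b ≠ 1 := exists_ne_one_left (RankOnePair_symm h)

/-- `N_A(B) = 1`, elementwise. -/
lemma eq_one_of_conjBy_eq {a : G} (ha : a ∈ A) (hn : conjBy B a = B) : a = 1 := by
  by_contra ha1
  have hn' : conjBy B a⁻¹ = B := by
    conv_lhs => rw [← hn]
    simp [conjBy_conjBy]
  obtain ⟨b, hb, -, he⟩ := h.cond_left a ha ha1
  rw [hn'] at he
  -- conjBy A b⁻¹ = B; conjugate by b
  have : A = conjBy B b := by
    rw [← he, conjBy_conjBy]; simp
  rw [conjBy_of_mem hb] at this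
  exact h.ne this

lemma eq_one_of_conjBy_eq' {b : G} (hb : b ∈ B) (hn : conjBy A b = A) : b = 1 :=
  eq_one_of_conjBy_eq (RankOnePair_symm h) hb hn

lemma inf_normalizer_left : A ⊓ Subgroup.normalizer (B : Set G) = ⊥ := by
  rw [eq_bot_iff]
  rintro x ⟨hx, hxn⟩
  have : conjBy B x = B := mem_normalizer_iff_conjBy.1 hxn
  exact eq_one_of_conjBy_eq h hx this

lemma inf_normalizer_right : B ⊓ Subgroup.normalizer (A : Set G) = ⊥ :=
  inf_normalizer_left (RankOnePair_symm h)

lemma inf_eq_bot : A ⊓ B = ⊥ := by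
  rw [eq_bot_iff]
  rintro x ⟨hx, hx'⟩
  exact eq_one_of_conjBy_eq h hx (conjBy_of_mem hx')

/-- If `a, a' ∈ A` with `a B a⁻¹ = a' B a'⁻¹` then `a = a'`. -/
lemma conjBy_right_inj {a a' : G} (ha : a ∈ A) (ha' : a' ∈ A) (he : conjBy B a = conjBy B a') :
    a = a' := by
  have : conjBy B (a'⁻¹ * a) = B := by
    rw [← conjBy_conjBy, he, conjBy_conjBy]; simp
  have h1 := eq_one_of_conjBy_eq h (A.mul_mem (A.inv_mem ha') ha) this
  exact (inv_mul_eq_one.1 h1).symm

lemma conjBy_left_inj {b b' : G} (hb : b ∈ B) (hb' : b' ∈ B) (he : conjBy A b = conjBy A b') :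
    b = b' :=
  conjBy_right_inj (RankOnePair_symm h) hb hb' he

/-- For `b ∈ B`, `b A b⁻¹` is `A` (if b = 1) or `a B a⁻¹` for some `a ∈ A`, `a ≠ 1`. -/
lemma exists_conjBy_left_eq {b : G} (hb : b ∈ B) (hb1 : b ≠ 1) :
    ∃ a ∈ A, a ≠ 1 ∧ conjBy A b = conjBy B a := by
  have hb' : b⁻¹ ∈ B := B.inv_mem hb
  have hb1' : b⁻¹ ≠ 1 := by simpa using hb1
  obtain ⟨a, ha, ha1, he⟩ := h.cond_right _ hb' hb1'
  refine ⟨a⁻¹, A.inv_mem ha, by simpa using ha1, ?_⟩
  rw [inv_inv] at he
  exact he.symm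

lemma exists_conjBy_right_eq {a : G} (ha : a ∈ A) (ha1 : a ≠ 1) :
    ∃ b ∈ B, b ≠ 1 ∧ conjBy B a = conjBy A b :=
  exists_conjBy_left_eq (RankOnePair_symm h) ha ha1

lemma right_mem_unipotent : B ∈ unipotentSubgroups A B := by
  obtain ⟨a, ha, ha1⟩ := exists_ne_one_left h
  obtain ⟨b, hb, hb1, he⟩ := exists_conjBy_right_eq h ha ha1
  refine ⟨a⁻¹ * b, ?_, ?_⟩
  · exact Subgroup.mul_mem _ (Subgroup.inv_mem _ (Subgroup.mem_sup_left ha))
      (Subgroup.mem_sup_right hb)
  · rw [← conjBy_conjBy, ← he, conjBy_conjBy]; simp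

omit h in
lemma left_mem_unipotent : A ∈ unipotentSubgroups A B :=
  ⟨1, Subgroup.one_mem _, by simp⟩

omit h in
lemma conjBy_mem_unipotent {C : Subgroup G} (hC : C ∈ unipotentSubgroups A B) {x : G}
    (hx : x ∈ A ⊔ B) : conjBy C x ∈ unipotentSubgroups A B := by
  obtain ⟨y, hy, rfl⟩ := hC
  exact ⟨x * y, Subgroup.mul_mem _ hx hy, conjBy_conjBy _ _ _⟩

lemma right_conjBy_mem_unipotent {a : G} (ha : a ∈ A) : conjBy B a ∈ unipotentSubgroups A B :=
  conjBy_mem_unipotent (right_mem_unipotent h) (Subgroup.mem_sup_left ha)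

/-- The set `{A} ∪ {aBa⁻¹}` is stable under conjugation by elements of `A`. -/
lemma step_left {C : Subgroup G} {x : G} (hx : x ∈ A)
    (hC : C = A ∨ ∃ a ∈ A, C = conjBy B a) : conjBy C x = A ∨ ∃ a ∈ A, conjBy C x = conjBy B a := by
  rcases hC with rfl | ⟨a, ha, rfl⟩
  · left; exact conjBy_of_mem hx
  · right
    exact ⟨x * a, A.mul_mem hx ha, conjBy_conjBy _ _ _⟩

/-- The set `{A} ∪ {aBa⁻¹}` is stable under conjugation by elements of `B`. -/
lemma step_right {C : Subgroup G} {x : G} (hx : x ∈ B)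
    (hC : C = A ∨ ∃ a ∈ A, C = conjBy B a) : conjBy C x = A ∨ ∃ a ∈ A, conjBy C x = conjBy B a := by
  have step : ∀ b ∈ B, conjBy A b = A ∨ ∃ a ∈ A, conjBy A b = conjBy B a := by
    intro b hb
    by_cases hb1 : b = 1
    · left; simp [hb1]
    · right
      obtain ⟨a, ha, -, he⟩ := exists_conjBy_left_eq h hb hb1
      exact ⟨a, ha, he⟩
  rcases hC with rfl | ⟨a, ha, rfl⟩
  · exact step x hx
  · by_cases ha1 : a = 1
    · subst ha1
      right
      refine ⟨1, A.one_mem, ?_⟩
      rw [conjBy_one, conjBy_of_mem hx]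
    · obtain ⟨b, hb, -, he⟩ := exists_conjBy_right_eq h ha ha1
      rw [he, conjBy_conjBy]
      exact step _ (B.mul_mem hx hb)

/-- The description of the set of unipotent subgroups: `A` together with the `aBa⁻¹`. -/
lemma unipotent_eq_or {C : Subgroup G} (hC : C ∈ unipotentSubgroups A B) :
    C = A ∨ ∃ a ∈ A, C = conjBy B a := by
  obtain ⟨x, hx, rfl⟩ := hC
  rw [Subgroup.sup_eq_closure] at hx
  induction hx using Subgroup.closure_induction_left with
  | one => left; simp
  | mul_left x hx y hy ih =>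
    rw [← conjBy_conjBy]
    rcases hx with hx | hx
    · exact step_left h hx ih
    · exact step_right h hx ih
  | inv_mul_cancel x hx y hy ih =>
    rw [← conjBy_conjBy]
    rcases hx with hx | hx
    · exact step_left h (A.inv_mem hx) ih
    · exact step_right h (B.inv_mem hx) ih

lemma unipotent_ne_left {C : Subgroup G} (hC : C ∈ unipotentSubgroups A B) (hne : C ≠ A) :
    ∃ a ∈ A, C = conjBy B a := by
  rcases unipotent_eq_or h hC with h1 | h1
  · exact absurd h1 hne
  · exact h1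

lemma conjBy_right_ne_left {a : G} (ha : a ∈ A) : conjBy B a ≠ A := by
  intro he
  apply h.ne
  rw [conjBy_eq_iff] at he
  rw [he, conjBy_of_mem (A.inv_mem ha)] at *

/-- Any ordered pair of distinct unipotent subgroups can be carried to `(A, B)`. -/
lemma exists_carry {C₁ C₂ : Subgroup G} (hC₁ : C₁ ∈ unipotentSubgroups A B)
    (hC₂ : C₂ ∈ unipotentSubgroups A B) (hne : C₁ ≠ C₂) :
    ∃ x ∈ A ⊔ B, conjBy C₁ x = A ∧ conjBy C₂ x = B := by
  obtain ⟨x₁, hx₁, rfl⟩ := hC₁
  have hC₂' : conjBy C₂ x₁⁻¹ ∈ unipotentSubgroups A B :=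
    conjBy_mem_unipotent hC₂ (Subgroup.inv_mem _ hx₁)
  have hne' : conjBy C₂ x₁⁻¹ ≠ A := by
    intro he
    apply hne
    rw [conjBy_eq_iff, inv_inv] at he
    exact he.symm
  obtain ⟨a, ha, he⟩ := unipotent_ne_left h hC₂' hne'
  refine ⟨a⁻¹ * x₁⁻¹, Subgroup.mul_mem _ (Subgroup.inv_mem _ (Subgroup.mem_sup_left ha))
    (Subgroup.inv_mem _ hx₁), ?_, ?_⟩
  · rw [conjBy_conjBy]
    have : a⁻¹ * x₁⁻¹ * x₁ = a⁻¹ := by group
    rw [this]
    exact conjBy_of_mem (A.inv_mem ha)
  · rw [← conjBy_conjBy, he, conjBy_conjBy]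
    simp

lemma doubly_transitive {C₁ C₂ D₁ D₂ : Subgroup G} (hC₁ : C₁ ∈ unipotentSubgroups A B)
    (hC₂ : C₂ ∈ unipotentSubgroups A B) (hD₁ : D₁ ∈ unipotentSubgroups A B)
    (hD₂ : D₂ ∈ unipotentSubgroups A B) (hC : C₁ ≠ C₂) (hD : D₁ ≠ D₂) :
    ∃ x ∈ A ⊔ B, conjBy C₁ x = D₁ ∧ conjBy C₂ x = D₂ := by
  obtain ⟨x, hx, hx1, hx2⟩ := exists_carry h hC₁ hC₂ hC
  obtain ⟨y, hy, hy1, hy2⟩ := exists_carry h hD₁ hD₂ hD
  refine ⟨y⁻¹ * x, Subgroup.mul_mem _ (Subgroup.inv_mem _ hy) hx, ?_, ?_⟩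
  · rw [← conjBy_conjBy, hx1, ← hy1, conjBy_conjBy]; simp
  · rw [← conjBy_conjBy, hx2, ← hy2, conjBy_conjBy]; simp

/-- `A` is regular on the unipotent subgroups other than `A`. -/
lemma regular_left {C D : Subgroup G} (hC : C ∈ unipotentSubgroups A B)
    (hD : D ∈ unipotentSubgroups A B) (hCA : C ≠ A) (hDA : D ≠ A) :
    ∃! a : G, a ∈ A ∧ conjBy C a = D := by
  obtain ⟨a₁, ha₁, rfl⟩ := unipotent_ne_left h hC hCA
  obtain ⟨a₂, ha₂, rfl⟩ := unipotent_ne_left h hD hDA
  refine ⟨a₂ * a₁⁻¹, ⟨A.mul_mem ha₂ (A.inv_mem ha₁), ?_⟩, ?_⟩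
  · rw [conjBy_conjBy]; simp
  · rintro x ⟨hx, he⟩
    rw [conjBy_conjBy] at he
    have := conjBy_right_inj h (A.mul_mem hx ha₁) ha₂ he
    rw [← this]; simp

/-- A non-trivial element of `A` fixes no unipotent subgroup other than `A`. -/
lemma fixed_left {C : Subgroup G} (hC : C ∈ unipotentSubgroups A B) (hCA : C ≠ A) {a : G}
    (ha : a ∈ A) (he : conjBy C a = C) : a = 1 := by
  obtain ⟨x, ⟨-, -⟩, hu⟩ := regular_left h hC hC hCA hCA
  have h1 := hu a ⟨ha, he⟩
  have h2 := hu 1 ⟨A.one_mem, by simp⟩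
  rw [h1, h2]

/-- Distinct unipotent subgroups form again a rank one pair with the same generated subgroup. -/
lemma isRankOnePair_of_unipotent {C₁ C₂ : Subgroup G} (hC₁ : C₁ ∈ unipotentSubgroups A B)
    (hC₂ : C₂ ∈ unipotentSubgroups A B) (hne : C₁ ≠ C₂) : IsRankOnePair C₁ C₂ := by
  obtain ⟨x, -, hx1, hx2⟩ := exists_carry h hC₁ hC₂ hne
  have e1 : C₁ = conjBy A x⁻¹ := by rw [← hx1, conjBy_conjBy]; simp
  have e2 : C₂ = conjBy B x⁻¹ := by rw [← hx2, conjBy_conjBy]; simp
  subst e1 e2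
  exact isRankOnePair_conjBy h x⁻¹

end RankOne

section Normal

variable {X : Type*} [Group X] {A B : Subgroup X}

lemma conjBy_mem_unipotent_of_top (htop : A ⊔ B = ⊤) {C : Subgroup X}
    (hC : C ∈ unipotentSubgroups A B) (x : X) : conjBy C x ∈ unipotentSubgroups A B :=
  conjBy_mem_unipotent hC (by rw [htop]; trivial)

/-- `N ⊔ A = ⊤` as soon as the normal subgroup `N` moves a unipotent subgroup. -/
lemma sup_eq_top_of_moves (htop : A ⊔ B = ⊤) (h : IsRankOnePair A B) {N : Subgroup X} (hN : N.Normal)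
    {C : Subgroup X} (hC : C ∈ unipotentSubgroups A B) {n : X} (hn : n ∈ N)
    (hne : conjBy C n ≠ C) : N ⊔ A = ⊤ := by
  obtain ⟨x, hx, hx1, hx2⟩ := exists_carry h hC (conjBy_mem_unipotent_of_top htop hC n) hne.symm
  have hm : x * n * x⁻¹ ∈ N := hN.conj_mem n hn x
  have hB : conjBy A (x * n * x⁻¹) = B := by
    rw [← hx1, conjBy_conjBy]
    have : x * n * x⁻¹ * x = x * n := by group
    rw [this, ← conjBy_conjBy, hx2]
  rw [eq_top_iff, ← htop]
  refine sup_le le_sup_right ?_
  rw [← hB]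
  rintro _ ⟨a, ha, rfl⟩
  change x * n * x⁻¹ * a * (x * n * x⁻¹)⁻¹ ∈ N ⊔ A
  exact Subgroup.mul_mem _ (Subgroup.mul_mem _ (Subgroup.mem_sup_left hm) (Subgroup.mem_sup_right ha))
    (Subgroup.inv_mem _ (Subgroup.mem_sup_left hm))

/-- If every element of the normal subgroup `N` normalizes `A` and `B`, then `N` is central. -/
lemma le_center_of_fixes (htop : A ⊔ B = ⊤) (h : IsRankOnePair A B) {N : Subgroup X} (hN : N.Normal)
    (hA : ∀ n ∈ N, conjBy A n = A) (hB : ∀ n ∈ N, conjBy B n = B) : N ≤ Subgroup.center X := by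
  intro n hn
  have key : ∀ {A B : Subgroup X}, IsRankOnePair A B → (∀ n ∈ N, conjBy A n = A) →
      (∀ n ∈ N, conjBy B n = B) → ∀ a ∈ A, a * n = n * a := by
    intro A B h hA hB a ha
    have hx1 : n * a * n⁻¹ ∈ A := by
      rw [← hA n hn]; exact conj_mem_conjBy ha n
    have hx : n * a * n⁻¹ * a⁻¹ ∈ A := A.mul_mem hx1 (A.inv_mem ha)
    have hxN : n * a * n⁻¹ * a⁻¹ ∈ N := by
      have : n * a * n⁻¹ * a⁻¹ = n * (a * n⁻¹ * a⁻¹) := by group
      rw [this]
      exact N.mul_mem hn (hN.conj_mem _ (N.inv_mem hn) a)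
    have h1 := eq_one_of_conjBy_eq h hx (hB _ hxN)
    have h2 : n * a * n⁻¹ = a := mul_inv_eq_one.1 h1
    have h3 : n * a = a * n := mul_inv_eq_iff_eq_mul.1 h2
    exact h3.symm
  have hle : A ⊔ B ≤ Subgroup.centralizer ({n} : Set X) := by
    refine sup_le ?_ ?_
    · intro a ha
      rw [Subgroup.mem_centralizer_singleton_iff]
      exact key h hA hB a ha
    · intro b hb
      rw [Subgroup.mem_centralizer_singleton_iff]
      exact key (RankOnePair_symm h) hB hA b hb
  rw [Subgroup.mem_center_iff]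
  intro g
  have hg : g ∈ A ⊔ B := by rw [htop]; trivial
  exact (Subgroup.mem_centralizer_singleton_iff.1 (hle hg))

theorem normal_dichotomy (htop : A ⊔ B = ⊤) (h : IsRankOnePair A B) {N : Subgroup X}
    (hN : N.Normal) : N ⊔ A = ⊤ ∨ N ≤ Subgroup.center X := by
  by_cases hall : (∀ n ∈ N, conjBy A n = A) ∧ (∀ n ∈ N, conjBy B n = B)
  · right
    exact le_center_of_fixes htop h hN hall.1 hall.2
  · left
    rw [not_and_or] at hall
    rcases hall with hall | hall
    · push Not at hall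
      obtain ⟨n, hn, hne⟩ := hall
      exact sup_eq_top_of_moves htop h hN left_mem_unipotent hn hne
    · push Not at hall
      obtain ⟨n, hn, hne⟩ := hall
      exact sup_eq_top_of_moves htop h hN (right_mem_unipotent h) hn hne

lemma center_ne_top (h : IsRankOnePair A B) : Subgroup.center X ≠ ⊤ := by
  intro hc
  obtain ⟨b, hb, hb1⟩ := exists_ne_one_right h
  apply hb1
  apply eq_one_of_conjBy_eq' h hb
  ext x
  rw [mem_conjBy]
  have hbc : b ∈ Subgroup.center X := by rw [hc]; trivial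
  have : b⁻¹ * x * b = x := by
    have := (Subgroup.mem_center_iff.1 hbc) x
    rw [mul_assoc, this]; group
  rw [this]

theorem isQuasisimple_of_isPerfect (htop : A ⊔ B = ⊤) (h : IsRankOnePair A B)
    (hp : Group.IsPerfect X) : IsQuasisimple X := by
  refine ⟨hp, ?_⟩
  have hnt : Nontrivial (X ⧸ Subgroup.center X) := by
    apply QuotientGroup.nontrivial_iff.2
    exact center_ne_top h
  refine ⟨?_⟩
  intro H hH
  let N : Subgroup X := H.comap (QuotientGroup.mk' (Subgroup.center X))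
  have hNn : N.Normal := Subgroup.Normal.comap hH _
  have hZ : Subgroup.center X ≤ N := by
    intro z hz
    change (QuotientGroup.mk' (Subgroup.center X)) z ∈ H
    have : (QuotientGroup.mk' (Subgroup.center X)) z = 1 := by
      simpa using (QuotientGroup.eq_one_iff z).2 hz
    rw [this]
    exact H.one_mem
  rcases normal_dichotomy htop h hNn with hd | hd
  · right
    -- X/N is perfect and nilpotent
    have hA : Group.IsNilpotent A := h.nilpotent_left
    let f : A →* X ⧸ N := (QuotientGroup.mk' N).comp A.subtype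
    have hf : Function.Surjective f := by
      intro q
      obtain ⟨x, rfl⟩ := QuotientGroup.mk_surjective q
      have hx : x ∈ N ⊔ A := by rw [hd]; trivial
      obtain ⟨n, hn, a, ha, rfl⟩ := Subgroup.mem_sup_of_normal_left.1 hx
      refine ⟨⟨a, ha⟩, ?_⟩
      change ((a : X) : X ⧸ N) = ((n * a : X) : X ⧸ N)
      rw [QuotientGroup.eq]
      have : a⁻¹ * (n * a) = a⁻¹ * n * a⁻¹⁻¹ := by group
      rw [this]
      exact hNn.conj_mem _ hn _
    have hnil : Group.IsNilpotent (X ⧸ N) := Group.nilpotent_of_surjective f hf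
    have hperf : Group.IsPerfect (X ⧸ N) := inferInstance
    have hsub : Subsingleton (X ⧸ N) := by
      by_contra hns
      rw [not_subsingleton_iff_nontrivial] at hns
      exact Group.IsPerfect.not_isNilpotent (X ⧸ N) hnil
    have hNtop : N = ⊤ := by
      rw [eq_top_iff]
      intro x _
      rw [← QuotientGroup.eq_one_iff]
      exact Subsingleton.elim _ _
    rw [eq_top_iff]
    intro q _
    obtain ⟨x, rfl⟩ := QuotientGroup.mk_surjective q
    have : x ∈ N := by rw [hNtop]; trivial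
    exact this
  · left
    rw [eq_bot_iff]
    intro q hq
    obtain ⟨x, rfl⟩ := QuotientGroup.mk_surjective q
    have hx : x ∈ N := hq
    have := hd hx
    simpa using (QuotientGroup.eq_one_iff x).2 this

theorem upperCentralSeries_two (htop : A ⊔ B = ⊤) (h : IsRankOnePair A B) :
    Subgroup.upperCentralSeries X 2 = Subgroup.center X := by
  have hN : (Subgroup.upperCentralSeries X 2).Normal := inferInstance
  have hle : Subgroup.center X ≤ Subgroup.upperCentralSeries X 2 := by
    rw [← Subgroup.upperCentralSeries_one]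
    exact Subgroup.upperCentralSeries_mono X (by norm_num)
  rcases normal_dichotomy htop h hN with hd | hd
  · exfalso
    set N := Subgroup.upperCentralSeries X 2 with hNdef
    -- every conjugate of A lies in A ⊔ Z
    have hconj : ∀ g : X, ∀ a ∈ A, g * a * g⁻¹ ∈ A ⊔ Subgroup.center X := by
      intro g a ha
      have hg : g ∈ N ⊔ A := by rw [hd]; trivial
      obtain ⟨n, hn, a', ha', rfl⟩ := Subgroup.mem_sup_of_normal_left.1 hg
      have ha'' : a' * a * a'⁻¹ ∈ A := A.mul_mem (A.mul_mem ha' ha) (A.inv_mem ha')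
      set c := a' * a * a'⁻¹ with hc
      have hnc : n * c * n⁻¹ * c⁻¹ ∈ Subgroup.center X := by
        have hn' : n ∈ Subgroup.upperCentralSeries X (1 + 1) := hn
        have := (Subgroup.mem_upperCentralSeries_succ_iff).1 hn' c
        rw [Subgroup.upperCentralSeries_one] at this
        exact this
      have e : n * a' * a * (n * a')⁻¹ = (n * c * n⁻¹ * c⁻¹) * c := by
        rw [hc]; group
      rw [e]
      exact Subgroup.mul_mem _ (Subgroup.mem_sup_right hnc) (Subgroup.mem_sup_left ha'')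
    -- B ≤ A ⊔ Z
    obtain ⟨x, -, hx⟩ := right_mem_unipotent h
    obtain ⟨b, hb, hb1⟩ := exists_ne_one_right h
    have hbz : b ∈ A ⊔ Subgroup.center X := by
      rw [hx] at hb
      obtain ⟨a, ha, rfl⟩ := hb
      exact hconj x a ha
    obtain ⟨a, ha, z, hz, rfl⟩ := Subgroup.mem_sup_of_normal_right.1 hbz
    apply hb1
    apply eq_one_of_conjBy_eq' h hb
    rw [← conjBy_conjBy]
    have hzA : conjBy A z = A := by
      ext y
      rw [mem_conjBy]
      have : z⁻¹ * y * z = y := by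
        have := (Subgroup.mem_center_iff.1 hz) y
        rw [mul_assoc, this]; group
      rw [this]
    rw [hzA, conjBy_of_mem ha]
  · exact le_antisymm hd hle

theorem not_isNilpotent (htop : A ⊔ B = ⊤) (h : IsRankOnePair A B) : ¬ Group.IsNilpotent X := by
  intro hnil
  obtain ⟨n, hn⟩ := Group.IsNilpotent.nilpotent X
  have hall : ∀ k, Subgroup.upperCentralSeries X (k + 1) = Subgroup.center X := by
    intro k
    induction k with
    | zero => simp
    | succ k ih =>
      apply le_antisymm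
      · intro x hx
        have h2 := upperCentralSeries_two htop h
        rw [← h2]
        have hx' := (Subgroup.mem_upperCentralSeries_succ_iff).1 hx
        have : x ∈ Subgroup.upperCentralSeries X (1 + 1) := by
          rw [Subgroup.mem_upperCentralSeries_succ_iff]
          intro y
          have := hx' y
          rw [ih] at this
          rwa [Subgroup.upperCentralSeries_one]
        exact this
      · rw [← ih]
        exact Subgroup.upperCentralSeries_mono X (by omega)
  have hc : Subgroup.center X = ⊤ := by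
    rw [← hall n]
    rw [eq_top_iff, ← hn]
    exact Subgroup.upperCentralSeries_mono X (by omega)
  exact center_ne_top h hc

end Normal

end Cfsg.Agent.Lib.RootSubgroups.RankOne
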