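/-
Abstract root subgroups (Timmesfeld, Chapter II, Section 2): basic lemmas.
-/
import Mathlib
import Cfsg.Prelude.Def_RootSubgroups
import Cfsg.Agent.Lib.RootSubgroups.RankOne

set_option autoImplicit false

namespace Cfsg.Agent.Lib.RootSubgroups.Abstract

open Cfsg Cfsg.Agent.Lib.RootSubgroups.RankOne
open scoped commutatorElement

variable {G : Type*} [Group G] {A B C D E : Subgroup G} {S : Set (Subgroup G)}

lemma comm_mem {A B : Subgroup G} {a b : G} (ha : a ∈ A) (hb : b ∈ B) :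
    a * b * a⁻¹ * b⁻¹ ∈ ⁅A, B⁆ := by
  have := Subgroup.commutator_mem_commutator ha hb
  rwa [commutatorElement_def] at this

lemma commute_of_bot (h : ⁅A, B⁆ = ⊥) {a b : G} (ha : a ∈ A) (hb : b ∈ B) : a * b = b * a := by
  have := comm_mem ha hb
  rw [h, Subgroup.mem_bot] at this
  have h2 : a * b * a⁻¹ = b := mul_inv_eq_one.1 this
  exact mul_inv_eq_iff_eq_mul.1 h2

lemma bot_of_commute (h : ∀ a ∈ A, ∀ b ∈ B, a * b = b * a) : ⁅A, B⁆ = ⊥ := by
  rw [eq_bot_iff, Subgroup.commutator_le]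
  intro a ha b hb
  rw [Subgroup.mem_bot, commutatorElement_def, h a ha b hb]
  group

lemma conjBy_eq_self_of_commute {a : G} (ha : ∀ b ∈ B, a * b = b * a) : conjBy B a = B := by
  ext x
  rw [mem_conjBy]
  constructor
  · intro hx
    have h1 := ha _ hx
    have h2 : a * (a⁻¹ * x * a) = x * a := by group
    rw [h2] at h1
    have h3 : x = a⁻¹ * x * a := mul_right_cancel h1
    rwa [← h3] at hx
  · intro hx
    have h1 := ha _ hx
    have h3 : a⁻¹ * x * a = x := by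
      rw [mul_assoc, ← h1]; group
    rwa [h3]

lemma conjBy_of_bot (h : ⁅A, B⁆ = ⊥) {a : G} (ha : a ∈ A) : conjBy B a = B :=
  conjBy_eq_self_of_commute fun _ hb => commute_of_bot h ha hb

lemma conjBy_of_bot' (h : ⁅A, B⁆ = ⊥) {b : G} (hb : b ∈ B) : conjBy A b = A :=
  conjBy_eq_self_of_commute fun _ ha => (commute_of_bot h ha hb).symm

/-- Lemma L: in a rank one pair, for matching `a` and `d`, the commutator `d⁻¹ a d a⁻¹` does not
commute with `a`. -/
lemma not_commute_matched (h : IsRankOnePair A D) {a d : G} (ha : a ∈ A) (ha1 : a ≠ 1) (hd : d ∈ D)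
    (he : conjBy A d⁻¹ = conjBy D a⁻¹) : (d⁻¹ * a * d * a⁻¹) * a ≠ a * (d⁻¹ * a * d * a⁻¹) := by
  intro hc
  have h1 : d⁻¹ * a * d⁻¹⁻¹ ∈ conjBy A d⁻¹ := conj_mem_conjBy ha d⁻¹
  rw [he, mem_conjBy, inv_inv, inv_inv] at h1
  have e1 : (d⁻¹ * a * d * a⁻¹) * a = d⁻¹ * a * d := by group
  have e2 : a * (d⁻¹ * a * d * a⁻¹) = a * (d⁻¹ * a * d) * a⁻¹ := by group
  rw [e1, e2] at hc
  rw [← hc] at h1
  have h2 : a = d * (d⁻¹ * a * d) * d⁻¹ := by group
  have h3 : a ∈ D := by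
    rw [h2]
    exact D.mul_mem (D.mul_mem hd h1) (D.inv_mem hd)
  have h4 : a ∈ A ⊓ D := ⟨ha, h3⟩
  rw [inf_eq_bot h] at h4
  exact ha1 h4

/-- The rank one matching element. -/
lemma exists_match (h : IsRankOnePair A D) {a : G} (ha : a ∈ A) (ha1 : a ≠ 1) :
    ∃ d ∈ D, d ≠ 1 ∧ conjBy A d⁻¹ = conjBy D a⁻¹ := h.cond_left a ha ha1

/-- Symmetry of the commutator case. -/
lemma commutatorCase_symm (h : RootCommutatorCase S A B) : RootCommutatorCase S B A := by
  obtain ⟨h1, h2, h3, h4⟩ := h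
  have hcomm : ⁅B, A⁆ = ⁅A, B⁆ := Subgroup.commutator_comm B A
  refine ⟨by rwa [hcomm], ?_, ?_, ?_⟩
  · intro c hc x hx
    rw [hcomm] at hc
    rw [sup_comm] at hx
    exact h2 c hc x hx
  · intro b hb hb1
    rw [hcomm, ← h4 b hb hb1]
    apply le_antisymm
    · rw [Subgroup.closure_le]
      rintro _ ⟨a, ha, rfl⟩
      have : b * a * b⁻¹ * a⁻¹ = (a * b * a⁻¹ * b⁻¹)⁻¹ := by group
      dsimp only
      rw [this]
      exact Subgroup.inv_mem _ (Subgroup.subset_closure ⟨a, ha, rfl⟩)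
    · rw [Subgroup.closure_le]
      rintro _ ⟨a, ha, rfl⟩
      have : a * b * a⁻¹ * b⁻¹ = (b * a * b⁻¹ * a⁻¹)⁻¹ := by group
      dsimp only
      rw [this]
      exact Subgroup.inv_mem _ (Subgroup.subset_closure ⟨a, ha, rfl⟩)
  · intro a ha ha1
    rw [hcomm, ← h3 a ha ha1]
    apply le_antisymm
    · rw [Subgroup.closure_le]
      rintro _ ⟨b, hb, rfl⟩
      have : b * a * b⁻¹ * a⁻¹ = (a * b * a⁻¹ * b⁻¹)⁻¹ := by group
      dsimp only
      rw [this]
      exact Subgroup.inv_mem _ (Subgroup.subset_closure ⟨b, hb, rfl⟩)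
    · rw [Subgroup.closure_le]
      rintro _ ⟨b, hb, rfl⟩
      have : a * b * a⁻¹ * b⁻¹ = (b * a * b⁻¹ * a⁻¹)⁻¹ := by group
      dsimp only
      rw [this]
      exact Subgroup.inv_mem _ (Subgroup.subset_closure ⟨b, hb, rfl⟩)

section Case

variable (h : RootCommutatorCase S A B)
include h

lemma central_comm {c x : G} (hc : c ∈ ⁅A, B⁆) (hx : x ∈ A ⊔ B) : c * x = x * c := h.2.1 c hc x hx

lemma central_left {c x : G} (hc : c ∈ ⁅A, B⁆) (hx : x ∈ A) : c * x = x * c :=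
  h.2.1 c hc x (Subgroup.mem_sup_left hx)

lemma central_right {c x : G} (hc : c ∈ ⁅A, B⁆) (hx : x ∈ B) : c * x = x * c :=
  h.2.1 c hc x (Subgroup.mem_sup_right hx)

omit h in
lemma conj_eq_comm_mul {a b : G} : a * b * a⁻¹ = (a * b * a⁻¹ * b⁻¹) * b := by group

/-- `[a, b b'] = [a, b] [a, b']` in the commutator case. -/
lemma comm_mul_right {a b b' : G} (ha : a ∈ A) (hb : b ∈ B) (hb' : b' ∈ B) :
    a * (b * b') * a⁻¹ * (b * b')⁻¹ = (a * b * a⁻¹ * b⁻¹) * (a * b' * a⁻¹ * b'⁻¹) := by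
  have hc := central_right h (comm_mem ha hb') hb
  set c' := a * b' * a⁻¹ * b'⁻¹ with hc'
  have e1 : a * b' * a⁻¹ = c' * b' := by rw [hc']; group
  calc a * (b * b') * a⁻¹ * (b * b')⁻¹
      = (a * b * a⁻¹) * (a * b' * a⁻¹) * b'⁻¹ * b⁻¹ := by group
    _ = (a * b * a⁻¹) * (c' * b') * b'⁻¹ * b⁻¹ := by rw [e1]
    _ = (a * b * a⁻¹) * (c' * b⁻¹) := by group
    _ = (a * b * a⁻¹) * (b⁻¹ * c') := by
        rw [central_right h (comm_mem ha hb') (B.inv_mem hb)]
    _ = (a * b * a⁻¹ * b⁻¹) * c' := by group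

/-- `[a a', b] = [a', b] [a, b]` in the commutator case. -/
lemma comm_mul_left {a a' b : G} (ha : a ∈ A) (ha' : a' ∈ A) (hb : b ∈ B) :
    (a' * a) * b * (a' * a)⁻¹ * b⁻¹ = (a * b * a⁻¹ * b⁻¹) * (a' * b * a'⁻¹ * b⁻¹) := by
  set c := a * b * a⁻¹ * b⁻¹ with hc
  have e1 : a * b * a⁻¹ = c * b := by rw [hc]; group
  have hc1 : c * a' = a' * c := central_left h (comm_mem ha hb) ha'
  have hc2 : c * a'⁻¹ = a'⁻¹ * c := central_left h (comm_mem ha hb) (A.inv_mem ha')
  calc (a' * a) * b * (a' * a)⁻¹ * b⁻¹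
      = a' * (a * b * a⁻¹) * a'⁻¹ * b⁻¹ := by group
    _ = a' * (c * b) * a'⁻¹ * b⁻¹ := by rw [e1]
    _ = (a' * c) * b * a'⁻¹ * b⁻¹ := by group
    _ = (c * a') * b * a'⁻¹ * b⁻¹ := by rw [hc1]
    _ = c * (a' * b * a'⁻¹ * b⁻¹) := by group

lemma comm_inv_right {a b : G} (ha : a ∈ A) (hb : b ∈ B) :
    a * b⁻¹ * a⁻¹ * b⁻¹⁻¹ = (a * b * a⁻¹ * b⁻¹)⁻¹ := by
  have h1 := comm_mul_right h ha hb (B.inv_mem hb)
  have e1 : a * (b * b⁻¹) * a⁻¹ * (b * b⁻¹)⁻¹ = 1 := by group
  rw [e1] at h1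
  exact (eq_inv_of_mul_eq_one_right h1.symm)

/-- For `a ≠ 1` the commutators `[a, b]` exhaust `⁅A, B⁆`. -/
lemma exists_comm_eq {a c : G} (ha : a ∈ A) (ha1 : a ≠ 1) (hc : c ∈ ⁅A, B⁆) :
    ∃ b ∈ B, a * b * a⁻¹ * b⁻¹ = c := by
  rw [← h.2.2.1 a ha ha1] at hc
  induction hc using Subgroup.closure_induction with
  | mem x hx =>
    obtain ⟨b, hb, rfl⟩ := hx
    exact ⟨b, hb, rfl⟩
  | one => exact ⟨1, B.one_mem, by group⟩
  | mul x y _ _ hx hy =>
    obtain ⟨b, hb, rfl⟩ := hx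
    obtain ⟨b', hb', rfl⟩ := hy
    exact ⟨b * b', B.mul_mem hb hb', comm_mul_right h ha hb hb'⟩
  | inv x _ hx =>
    obtain ⟨b, hb, rfl⟩ := hx
    exact ⟨b⁻¹, B.inv_mem hb, comm_inv_right h ha hb⟩

lemma ne_bot_of_case (hS : IsRootSubgroupSet S) : ⁅A, B⁆ ≠ ⊥ := hS.ne_bot _ h.1

/-- Lemma N: in the commutator case no non-identity element of `A` normalizes `B`. -/
lemma conjBy_ne_self (hS : IsRootSubgroupSet S) {a : G} (ha : a ∈ A) (ha1 : a ≠ 1) :
    conjBy B a ≠ B := by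
  intro he
  have hle : ⁅A, B⁆ ≤ B := by
    rw [← h.2.2.1 a ha ha1, Subgroup.closure_le]
    rintro _ ⟨b, hb, rfl⟩
    have h1 : a * b * a⁻¹ ∈ B := by
      rw [← he]; exact conj_mem_conjBy hb a
    exact B.mul_mem h1 (B.inv_mem hb)
  apply ne_bot_of_case h hS
  rw [eq_bot_iff]
  intro y hy
  -- y is central, but `[a', y]` generate ⁅A, B⁆ if y ≠ 1
  by_contra hy1
  have hy1' : y ≠ 1 := by simpa using hy1
  apply hy1
  have hall := h.2.2.2 y (hle hy) hy1'
  rw [← hall] at hy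
  have hle' : Subgroup.closure ((fun a => a * y * a⁻¹ * y⁻¹) '' (A : Set G)) ≤ ⊥ := by
    rw [Subgroup.closure_le]
    rintro _ ⟨a', ha', rfl⟩
    have hy' : y ∈ ⁅A, B⁆ := by
      rw [← hall]; exact hy
    have := central_left h hy' ha'
    have e : a' * y * a'⁻¹ * y⁻¹ = 1 := by
      rw [← this]; group
    simp only [SetLike.mem_coe, Subgroup.mem_bot]
    exact e
  exact hle' hy

lemma conjBy_ne_self' (hS : IsRootSubgroupSet S) {b : G} (hb : b ∈ B) (hb1 : b ≠ 1) :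
    conjBy A b ≠ A :=
  conjBy_ne_self (commutatorCase_symm h) hS hb hb1

end Case

lemma comm_of_isMulCommutative {A : Subgroup G} (h : IsMulCommutative A) {x y : G} (hx : x ∈ A)
    (hy : y ∈ A) : x * y = y * x := by
  have := h.is_comm.comm ⟨x, hx⟩ ⟨y, hy⟩
  simpa using congrArg Subtype.val this

lemma exists_rankOne_of_not_isolated (hAS : A ∈ S) (hA : ¬ IsIsolatedIn (FAdj S) S A) :
    ∃ D ∈ S, IsRankOnePair A D := by
  unfold IsIsolatedIn at hA
  push Not at hA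
  obtain ⟨D, hD⟩ := hA hAS
  by_cases h1 : FAdj S A D
  · exact ⟨D, h1.2.1, h1.2.2⟩
  · have h2 := hD h1
    exact ⟨D, h2.1, RankOnePair_symm h2.2.2⟩

lemma rootElements_conj {x : G} (hx : x ∈ rootElements S) (hS : IsRootSubgroupSet S) (g : G) :
    g * x * g⁻¹ ∈ rootElements S := by
  obtain ⟨hx1, E, hE, hxE⟩ := hx
  refine ⟨?_, conjBy E g, hS.conj_mem E hE g, conj_mem_conjBy hxE g⟩
  intro h1
  apply hx1
  have : x = g⁻¹ * (g * x * g⁻¹) * g := by group
  rw [this, h1]; simp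

lemma conj_mem_commutator_left {a x : G} (ha : a ∈ A) (hx : x ∈ ⁅A, B⁆) : a * x * a⁻¹ ∈ ⁅A, B⁆ := by
  rw [Subgroup.commutator_def] at hx
  induction hx using Subgroup.closure_induction with
  | mem y hy =>
    obtain ⟨x₁, hx₁, x₂, hx₂, rfl⟩ := hy
    have e : a * ⁅x₁, x₂⁆ * a⁻¹ = ⁅a * x₁, x₂⁆ * ⁅a, x₂⁆⁻¹ := by
      simp only [commutatorElement_def]; group
    rw [e]
    exact Subgroup.mul_mem _ (Subgroup.commutator_mem_commutator (A.mul_mem ha hx₁) hx₂)
      (Subgroup.inv_mem _ (Subgroup.commutator_mem_commutator ha hx₂))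
  | one => simp
  | mul y₁ y₂ _ _ h1 h2 =>
    have e : a * (y₁ * y₂) * a⁻¹ = (a * y₁ * a⁻¹) * (a * y₂ * a⁻¹) := by group
    rw [e]
    exact Subgroup.mul_mem _ h1 h2
  | inv y _ h1 =>
    have e : a * y⁻¹ * a⁻¹ = (a * y * a⁻¹)⁻¹ := by group
    rw [e]
    exact Subgroup.inv_mem _ h1

lemma conjBy_commutator_left {a : G} (ha : a ∈ A) : conjBy ⁅A, B⁆ a = ⁅A, B⁆ := by
  ext x
  rw [mem_conjBy]
  constructor
  · intro hx
    have := conj_mem_commutator_left ha hx
    have e : a * (a⁻¹ * x * a) * a⁻¹ = x := by group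
    rwa [e] at this
  · intro hx
    have := conj_mem_commutator_left (A.inv_mem ha) hx
    rwa [inv_inv] at this

lemma conjBy_commutator_right {b : G} (hb : b ∈ B) : conjBy ⁅A, B⁆ b = ⁅A, B⁆ := by
  rw [Subgroup.commutator_comm]
  exact conjBy_commutator_left hb

section RootSet

variable (hS : IsRootSubgroupSet S)
include hS

lemma isRankOnePair_or (hA : A ∈ S) (hB : B ∈ S) :
    ⁅A, B⁆ = ⊥ ∨ IsRankOnePair A B ∨ RootCommutatorCase S A B := hS.pair A hA B hB

/-- (S5028) A member with a rank one partner meets every other member trivially. -/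
theorem inf_eq_bot_or_eq (hB : B ∈ S) (hD : D ∈ S) (hAD : IsRankOnePair A D) :
    A ⊓ B = ⊥ ∨ A = B := by
  by_contra hcon
  push Not at hcon
  obtain ⟨hAB, hne⟩ := hcon
  have : ∃ c ∈ A ⊓ B, c ≠ 1 := by
    by_contra hc
    push Not at hc
    exact hAB ((Subgroup.eq_bot_iff_forall _).2 hc)
  obtain ⟨c, ⟨hcA, hcB⟩, hc1⟩ := this
  obtain ⟨d, hd, -, he⟩ := hAD.cond_left c hcA hc1
  rcases hS.pair B hB D hD with h1 | h1 | h1
  · exact hc1 (eq_one_of_conjBy_eq hAD hcA (conjBy_of_bot h1 hcB))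
  · obtain ⟨d₂, hd₂, -, he₂⟩ := h1.cond_left c hcB hc1
    have e : conjBy B d₂⁻¹ = conjBy A d⁻¹ := he₂.trans he.symm
    have e2 : B = conjBy A (d₂ * d⁻¹) := by
      rw [← conjBy_conjBy, ← e, conjBy_conjBy]; simp
    by_cases hg : d₂ * d⁻¹ = 1
    · rw [hg, conjBy_one] at e2
      exact hne e2.symm
    · have hgD : d₂ * d⁻¹ ∈ D := D.mul_mem hd₂ (D.inv_mem hd)
      have hC' : conjBy A (d₂ * d⁻¹) ≠ A := fun hh => hg (eq_one_of_conjBy_eq' hAD hgD hh)
      have hfix : conjBy (conjBy A (d₂ * d⁻¹)) c = conjBy A (d₂ * d⁻¹) := by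
        rw [← e2]; exact conjBy_of_mem hcB
      have hmem : conjBy A (d₂ * d⁻¹) ∈ unipotentSubgroups A D :=
        ⟨d₂ * d⁻¹, Subgroup.mem_sup_right hgD, rfl⟩
      exact hc1 (fixed_left hAD hmem hC' hcA hfix)
  · have hw : d⁻¹ * c * d⁻¹⁻¹ * c⁻¹ ∈ ⁅B, D⁆ := by
      rw [Subgroup.commutator_comm]
      exact comm_mem (D.inv_mem hd) hcB
    have hc2 := central_left h1 hw hcB
    rw [inv_inv] at hc2
    exact not_commute_matched hAD hcA hc1 hd he hc2

/-- Lemma G: `⁅A, B⁆ ∈ S` forces the commutator case. -/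
theorem commutatorCase_of_mem (hA : A ∈ S) (hB : B ∈ S) (hC : ⁅A, B⁆ ∈ S) :
    RootCommutatorCase S A B := by
  have hne : ⁅A, B⁆ ≠ ⊥ := hS.ne_bot _ hC
  rcases hS.pair A hA B hB with h1 | h1 | h1
  · exact absurd h1 hne
  · exfalso
    obtain ⟨a, ha, ha1⟩ := exists_ne_one_left h1
    have hcomm : ⁅A, ⁅A, B⁆⁆ = ⊥ := by
      rcases hS.pair A hA _ hC with h2 | h2 | h2
      · exact h2
      · exact absurd (eq_one_of_conjBy_eq h2 ha (conjBy_commutator_left ha)) ha1
      · exact absurd (conjBy_commutator_left ha) (conjBy_ne_self h2 hS ha ha1)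
    obtain ⟨d, hd, -, he⟩ := h1.cond_left a ha ha1
    have hw : d⁻¹ * a * d⁻¹⁻¹ * a⁻¹ ∈ ⁅A, B⁆ := by
      rw [Subgroup.commutator_comm]
      exact comm_mem (B.inv_mem hd) ha
    rw [inv_inv] at hw
    have := commute_of_bot hcomm ha hw
    exact not_commute_matched h1 ha ha1 hd he this.symm
  · exact h1

/-- (S5025) -/
theorem mul_not_mem_rootElements (hA : A ∈ S) (hB : B ∈ S) (hAB : IsRankOnePair A B) {z : G}
    (hz : ∀ x ∈ A ⊔ B, z * x = x * z) (hz1 : z ≠ 1) {a : G} (ha : a ∈ A) (ha1 : a ≠ 1) :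
    z * a ∉ rootElements S := by
  rintro ⟨he1, E, hE, heE⟩
  have hzA : ∀ x ∈ A, z * x = x * z := fun x hx => hz x (Subgroup.mem_sup_left hx)
  have hzB : ∀ x ∈ B, z * x = x * z := fun x hx => hz x (Subgroup.mem_sup_right hx)
  obtain ⟨d, hd, -, hmatch⟩ := hAB.cond_left a ha ha1
  rcases hS.pair E hE B hB with h1 | h1 | h1
  · -- α
    apply ha1
    apply eq_one_of_conjBy_eq hAB ha
    apply conjBy_eq_self_of_commute
    intro b hb
    have h2 := commute_of_bot h1 heE hb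
    have h3 : z * (a * b) = z * (b * a) := by
      calc z * (a * b) = z * a * b := by group
        _ = b * (z * a) := h2
        _ = (b * z) * a := by group
        _ = (z * b) * a := by rw [hzB b hb]
        _ = z * (b * a) := by group
    exact mul_left_cancel h3
  · -- β
    obtain ⟨d₂, hd₂, -, he₂⟩ := h1.cond_left _ heE he1
    have hzB' : conjBy B z⁻¹ = B :=
      conjBy_eq_self_of_commute fun x hx => by
        have := hzB x hx
        calc z⁻¹ * x = z⁻¹ * (x * z) * z⁻¹ := by group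
          _ = z⁻¹ * (z * x) * z⁻¹ := by rw [this]
          _ = x * z⁻¹ := by group
    have e1 : conjBy B (z * a)⁻¹ = conjBy B a⁻¹ := by
      rw [mul_inv_rev, ← conjBy_conjBy, hzB']
    have e2 : conjBy E d₂⁻¹ = conjBy A d⁻¹ := by rw [he₂, e1, hmatch]
    have e3 : E = conjBy A (d₂ * d⁻¹) := by
      rw [← conjBy_conjBy, ← e2, conjBy_conjBy]; simp
    have hgB : d₂ * d⁻¹ ∈ B := B.mul_mem hd₂ (B.inv_mem hd)
    set g := d₂ * d⁻¹ with hg
    by_cases hg1 : g = 1
    · rw [hg1, conjBy_one] at e3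
      subst e3
      have hzE : z ∈ E := by
        have : z = (z * a) * a⁻¹ := by group
        rw [this]
        exact E.mul_mem heE (E.inv_mem ha)
      apply hz1
      apply eq_one_of_conjBy_eq hAB hzE
      exact conjBy_eq_self_of_commute hzB
    · apply ha1
      have hza : g⁻¹ * (z * a) * g ∈ A := by
        rw [e3, mem_conjBy] at heE
        exact heE
      have hzg : g⁻¹ * (z * a) * g = z * (g⁻¹ * a * g) := by
        have h1 : z * g⁻¹ = g⁻¹ * z := hzB _ (B.inv_mem hgB)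
        calc g⁻¹ * (z * a) * g = (g⁻¹ * z) * a * g := by group
          _ = (z * g⁻¹) * a * g := by rw [h1]
          _ = z * (g⁻¹ * a * g) := by group
      rw [hzg] at hza
      set a₁ := g⁻¹ * a * g with ha₁
      have hcomm : ∀ x ∈ A, a₁ * x = x * a₁ := by
        intro x hx
        have h2 := comm_of_isMulCommutative (hS.commutative A hA) hza hx
        have h3 : z * (a₁ * x) = z * (x * a₁) := by
          calc z * (a₁ * x) = z * a₁ * x := by group
            _ = x * (z * a₁) := h2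
            _ = (x * z) * a₁ := by group
            _ = (z * x) * a₁ := by rw [hzA x hx]
            _ = z * (x * a₁) := by group
        exact mul_left_cancel h3
      have hCmem : conjBy A g⁻¹ ∈ unipotentSubgroups A B :=
        ⟨g⁻¹, Subgroup.mem_sup_right (B.inv_mem hgB), rfl⟩
      have hCne : conjBy A g⁻¹ ≠ A := by
        intro hh
        have := eq_one_of_conjBy_eq' hAB (B.inv_mem hgB) hh
        exact hg1 (by simpa using this)
      have hr : IsRankOnePair (conjBy A g⁻¹) A :=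
        isRankOnePair_of_unipotent hAB hCmem left_mem_unipotent hCne
      have ha₁C : a₁ ∈ conjBy A g⁻¹ := by
        rw [ha₁, mem_conjBy]
        simp [mul_assoc, ha]
      have := eq_one_of_conjBy_eq hr ha₁C (conjBy_eq_self_of_commute hcomm)
      have h5 : a = g * a₁ * g⁻¹ := by rw [ha₁]; group
      rw [h5, this]; simp
  · -- γ
    set w := d⁻¹ * a * d * a⁻¹ with hw
    have hdA : ∀ {y}, y ∈ A ⊔ B → z * y = y * z := fun hy => hz _ hy
    have hwmem : w ∈ A ⊔ B := by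
      rw [hw]
      exact Subgroup.mul_mem _ (Subgroup.mul_mem _ (Subgroup.mul_mem _
        (Subgroup.mem_sup_right (B.inv_mem hd)) (Subgroup.mem_sup_left ha))
        (Subgroup.mem_sup_right hd)) (Subgroup.mem_sup_left (A.inv_mem ha))
    have hzw : z * w = w * z := hz _ hwmem
    have hw2 : w = d⁻¹ * (z * a) * d⁻¹⁻¹ * (z * a)⁻¹ := by
      have h1 : z * d⁻¹ = d⁻¹ * z := hzB _ (B.inv_mem hd)
      rw [inv_inv, mul_inv_rev]
      calc w = z * w * z⁻¹ := by rw [hzw]; group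
        _ = (z * d⁻¹) * a * d * a⁻¹ * z⁻¹ := by rw [hw]; group
        _ = (d⁻¹ * z) * a * d * a⁻¹ * z⁻¹ := by rw [h1]
        _ = d⁻¹ * (z * a) * d * (a⁻¹ * z⁻¹) := by group
    have hwC : w ∈ ⁅E, B⁆ := by
      rw [Subgroup.commutator_comm, hw2]
      exact comm_mem (B.inv_mem hd) heE
    have hwc := central_left h1 hwC heE
    apply not_commute_matched hAB ha ha1 hd hmatch
    have h3 : z * (w * a) = z * (a * w) := by
      calc z * (w * a) = (z * w) * a := by group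
        _ = (w * z) * a := by rw [hzw]
        _ = w * (z * a) := by group
        _ = (z * a) * w := hwc
        _ = z * (a * w) := by group
    exact mul_left_cancel h3

/-- For `z ∈ Z(G)`, `z ≠ 1` and `a ∈ A`... the second centre statement. -/
theorem comm_eq_one_of_central (hA : A ∈ S) (hB : B ∈ S) (hAB : IsRankOnePair A B) {y a : G}
    (hy : ∀ x, y * x = x * y) (ha : a ∈ A) (ha1 : a ≠ 1) (hya : y * a ∈ rootElements S) : y = 1 := by
  by_contra hy1
  exact mul_not_mem_rootElements hS hA hB hAB (fun x _ => hy x) hy1 ha ha1 hya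

/-- (S5027) -/
theorem upperCentralSeries_two_eq (hF : ∀ A ∈ S, ∃ D ∈ S, IsRankOnePair A D) :
    Subgroup.upperCentralSeries G 2 = Subgroup.center G := by
  apply le_antisymm
  · intro z hz
    have hle : (⨆ A ∈ S, A) ≤ Subgroup.centralizer ({z} : Set G) := by
      refine iSup₂_le ?_
      intro A hA a ha
      rw [Subgroup.mem_centralizer_singleton_iff]
      by_cases ha1 : a = 1
      · simp [ha1]
      obtain ⟨D, hD, hAD⟩ := hF A hA
      have hz' : z ∈ Subgroup.upperCentralSeries G (1 + 1) := hz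
      have hc := (Subgroup.mem_upperCentralSeries_succ_iff).1 hz' a
      rw [Subgroup.upperCentralSeries_one, Subgroup.mem_center_iff, commutatorElement_def] at hc
      set y := z * a * z⁻¹ * a⁻¹ with hy
      have hy1 : y = 1 := by
        apply comm_eq_one_of_central hS hA hD hAD (fun x => (hc x).symm) ha ha1
        have : y * a = z * a * z⁻¹ := by rw [hy]; group
        rw [this]
        apply rootElements_conj _ hS
        exact ⟨ha1, A, hA, ha⟩
      have h2 : z * a * z⁻¹ = a := mul_inv_eq_one.1 hy1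
      have h3 : z * a = a * z := mul_inv_eq_iff_eq_mul.1 h2
      exact h3.symm
    rw [hS.generates] at hle
    rw [Subgroup.mem_center_iff]
    intro g
    exact Subgroup.mem_centralizer_singleton_iff.1 (hle (Subgroup.mem_top g))
  · rw [← Subgroup.upperCentralSeries_one]
    exact Subgroup.upperCentralSeries_mono G (by norm_num)

/-- A member of `S` inside a rank one group which does not centralize it is a unipotent subgroup. -/
theorem mem_unipotent_of_le (hCD : IsRankOnePair C D) (hA : A ∈ S) (hC : C ∈ S) (hD : D ∈ S)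
    (hle : A ≤ C ⊔ D) (hnc : ¬ (⁅A, C⁆ = ⊥ ∧ ⁅A, D⁆ = ⊥)) : A ∈ unipotentSubgroups C D := by
  -- pick a member not commuting with A
  have hpick : ∃ C', C' ∈ S ∧ C' ≤ C ⊔ D ∧ C' ∈ unipotentSubgroups C D ∧ ⁅A, C'⁆ ≠ ⊥ := by
    by_cases h1 : ⁅A, C⁆ = ⊥
    · have h2 : ⁅A, D⁆ ≠ ⊥ := fun h2 => hnc ⟨h1, h2⟩
      exact ⟨D, hD, le_sup_right, right_mem_unipotent hCD, h2⟩
    · exact ⟨C, hC, le_sup_left, left_mem_unipotent, h1⟩
  obtain ⟨C', hC'S, hC'le, hC'mem, hne⟩ := hpick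
  rcases hS.pair A hA C' hC'S with h1 | h1 | h1
  · exact absurd h1 hne
  · obtain ⟨a, ha, ha1⟩ := exists_ne_one_left h1
    obtain ⟨c, hc, -, he⟩ := h1.cond_left a ha ha1
    have e : A = conjBy (conjBy C' a⁻¹) c := by
      rw [← he, conjBy_conjBy]; simp
    rw [e]
    apply conjBy_mem_unipotent (conjBy_mem_unipotent hC'mem (Subgroup.inv_mem _ (hle ha))) (hC'le hc)
  · exfalso
    have : ∃ a ∈ A, ∃ c ∈ C', a * c ≠ c * a := by
      by_contra hcon
      push Not at hcon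
      exact hne (bot_of_commute hcon)
    obtain ⟨a, ha, c, hc, hac⟩ := this
    have ha1 : a⁻¹ ≠ 1 := by
      rintro h2
      have : a = 1 := by simpa using h2
      simp [this] at hac
    have hc1 : c ≠ 1 := by
      rintro rfl
      simp at hac
    set C'' := conjBy C' a⁻¹ with hC''
    have hC''mem : C'' ∈ unipotentSubgroups C D :=
      conjBy_mem_unipotent hC'mem (Subgroup.inv_mem _ (hle ha))
    have hne' : C'' ≠ C' := fun hh => conjBy_ne_self h1 hS (A.inv_mem ha) ha1 hh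
    set c'' := a⁻¹ * c * a⁻¹⁻¹ with hc''
    have hc''mem : c'' ∈ C'' := conj_mem_conjBy hc _
    have hc''1 : c'' ≠ 1 := by
      intro h2
      apply hc1
      rw [hc''] at h2
      have : c = a * (a⁻¹ * c * a⁻¹⁻¹) * a⁻¹ := by group
      rw [this, h2]; simp
    -- c commutes with c''
    have hw : a⁻¹ * c * a⁻¹⁻¹ * c⁻¹ ∈ ⁅A, C'⁆ := comm_mem (A.inv_mem ha) hc
    have hcom : c'' * c = c * c'' := by
      have h2 := central_right h1 hw hc
      have e1 : c'' = (a⁻¹ * c * a⁻¹⁻¹ * c⁻¹) * c := by rw [hc'']; group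
      calc c'' * c = ((a⁻¹ * c * a⁻¹⁻¹ * c⁻¹) * c) * c := by rw [← e1]
        _ = (c * (a⁻¹ * c * a⁻¹⁻¹ * c⁻¹)) * c := by rw [h2]
        _ = c * ((a⁻¹ * c * a⁻¹⁻¹ * c⁻¹) * c) := by group
        _ = c * c'' := by rw [← e1]
    -- conjugate of C''
    have hfixC'' : conjBy C'' c = C'' := by
      by_contra hcon
      have hQ : conjBy C'' c ∈ unipotentSubgroups C D :=
        conjBy_mem_unipotent hC''mem (hC'le hc)
      have hmem : c'' ∈ conjBy C'' c := by
        rw [mem_conjBy]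
        have : c⁻¹ * c'' * c = c'' := by
          rw [mul_assoc, hcom]; group
        rwa [this]
      exact hc''1 (eq_one_of_conjBy_eq
        (isRankOnePair_of_unipotent hCD hC''mem hQ (Ne.symm hcon)) hc''mem (conjBy_of_mem hmem))
    exact hc1 (eq_one_of_conjBy_eq
      (isRankOnePair_of_unipotent hCD hC'mem hC''mem hne'.symm) hc hfixC'')

/-- (S5024) -/
theorem sup_eq_sup_of_le (hA : A ∈ S) (hB : B ∈ S) (hC : C ∈ S) (hD : D ∈ S)
    (hAB : IsRankOnePair A B) (hCD : IsRankOnePair C D) (hle : A ⊔ B ≤ C ⊔ D) :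
    A ⊔ B = C ⊔ D ∧ C ∈ unipotentSubgroups A B ∧ D ∈ unipotentSubgroups A B := by
  have hAle : A ≤ C ⊔ D := le_sup_left.trans hle
  have hBle : B ≤ C ⊔ D := le_sup_right.trans hle
  have hcent : ∀ {A B : Subgroup G}, IsRankOnePair A B → A ≤ C ⊔ D → B ≤ C ⊔ D →
      ¬ (⁅A, C⁆ = ⊥ ∧ ⁅A, D⁆ = ⊥) := by
    rintro A B hAB hAle hBle ⟨h1, h2⟩
    obtain ⟨a, ha, ha1⟩ := exists_ne_one_left hAB
    apply ha1
    apply eq_one_of_conjBy_eq hAB ha
    apply conjBy_eq_self_of_commute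
    intro b hb
    have hle' : C ⊔ D ≤ Subgroup.centralizer ({a} : Set G) := by
      refine sup_le ?_ ?_
      · intro c hc
        rw [Subgroup.mem_centralizer_singleton_iff]
        exact (commute_of_bot h1 ha hc).symm
      · intro c hc
        rw [Subgroup.mem_centralizer_singleton_iff]
        exact (commute_of_bot h2 ha hc).symm
    exact (Subgroup.mem_centralizer_singleton_iff.1 (hle' (hBle hb))).symm
  have hAm := mem_unipotent_of_le hS hCD hA hC hD hAle (hcent hAB hAle hBle)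
  have hBm := mem_unipotent_of_le hS hCD hB hC hD hBle (hcent (RankOnePair_symm hAB) hBle hAle)
  obtain ⟨x, hx, hx1, hx2⟩ := exists_carry hCD hAm hBm hAB.ne
  have e : A ⊔ B = C ⊔ D := by
    have h1 : conjBy (A ⊔ B) x = C ⊔ D := by
      rw [conjBy_sup, hx1, hx2]
    have h2 : conjBy (C ⊔ D) x⁻¹ = C ⊔ D := conjBy_of_mem (Subgroup.inv_mem _ hx)
    rw [← h2, ← h1, conjBy_conjBy]; simp
  refine ⟨e, ?_, ?_⟩
  · exact ⟨x, by rw [e]; exact hx, hx1.symm⟩
  · obtain ⟨y, hy, hy1⟩ := right_mem_unipotent hAB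
    refine ⟨x * y, by rw [e] at hy ⊢; exact Subgroup.mul_mem _ hx hy, ?_⟩
    rw [← conjBy_conjBy, ← hy1, hx2]

end RootSet

end Cfsg.Agent.Lib.RootSubgroups.Abstract
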